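import Mathlib

/-! Arithmetic for the characterization of the Suzuki groups by self-centralizing subgroups. -/

set_option autoImplicit false
set_option linter.unusedVariables false

namespace SCS

/-- the check for one value of the degree -/
def chk1 (u v al be A : ℕ) (pos : Bool) (n : ℕ) : Bool :=
  (List.range 370).all fun j => Nat.ble j 1 || Nat.blt (3 * n * (u * v) * (u * v)) (A * (j * j)) ||
    !((j * j) % n == 1) ||
      (if pos then !((n * al * (j * j)) % u == 4) || !((n * be * (j * j) + 4) % v == 0)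
      else !((n * al * (j * j) + 4) % u == 0) || !((n * be * (j * j)) % v == 4))

def chk2 (u v al : ℕ) : Bool :=
  (!((al * u + 1) % v == 0) || [5, 7, 9].all fun n => !((al * u) % n == 1) ||
    chk1 u v al ((al * u + 1) / v) (al * u * (al * u + 1)) true n) &&
  (!((al * u) % v == 1) || [5, 7, 9].all fun n => !((al * u + 1) % n == 0) ||
    chk1 u v al ((al * u - 1) / v) (al * u * (al * u - 1)) false n)

def chk : Bool := (List.range 33).all fun i => (List.range (33 - i)).all fun k =>
  (List.range (4 * k + 10)).all fun al => chk2 (4 * i + 9) (4 * k + 9) al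

theorem chk_eq : chk = true := by decide +kernel

theorem chk2_eq {u v al : ℕ} (hu : 9 ≤ u) (hv : 9 ≤ v) (u4 : u % 4 = 1) (v4 : v % 4 = 1)
    (hS : u + v ≤ 137) (ha : al ≤ v) : chk2 u v al = true := by
  have := chk_eq
  simp only [chk, List.all_eq_true, List.mem_range] at this
  have := this ((u - 9) / 4) (by omega) ((v - 9) / 4) (by omega) al (by omega)
  rwa [show 4 * ((u - 9) / 4) + 9 = u by omega, show 4 * ((v - 9) / 4) + 9 = v by omega] at this

theorem mod_of_dvd {x u r : ℕ} (h : (u : ℤ) ∣ x - r) (hr : r < u) : x % u = r := by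
  rw [← Nat.mod_eq_of_lt hr]
  exact (Nat.modEq_iff_dvd.2 h).symm

theorem mix_fin {n u v α β j : ℤ} (hn : n = 5 ∨ n = 7 ∨ n = 9) (hu : 9 ≤ u) (hv : 9 ≤ v)
    (u4 : u % 4 = 1) (v4 : v % 4 = 1) (hS : u + v ≤ 137) (e : α * u + 1 = β * v) (hα : α ≠ 0)
    (h1 : n ∣ α * u - 1) (hj : 1 < j) (h2 : n ∣ j * j - 1)
    (h3 : α * u * (α * u + 1) * (j * j) ≤ 3 * n * (u * v) * (u * v))
    (h4 : u ∣ n * α * (j * j) - 4) (h5 : v ∣ n * β * (j * j) + 4) : False := by
  have j1 : 3 * n + 1 ≤ j * j := by
    by_contra hc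
    have : n ≤ 9 := by omega
    have : j < 6 := by nlinarith
    rcases hn with rfl | rfl | rfl <;> interval_cases j <;> omega
  have n0 : 0 < n := by omega
  have P0 : 0 < u * v := by positivity
  have ab : 1 ≤ α * β := by
    rcases lt_or_gt_of_ne hα with h | h
    · have : β < 0 := by nlinarith
      nlinarith
    · have : 0 < β := by nlinarith
      nlinarith
  have eA : α * u * (α * u + 1) = α * β * (u * v) := by rw [e]; ring
  have A1 : α * u * (α * u + 1) < u * v * (u * v) := by
    by_contra hc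
    have := mul_le_mul (not_lt.1 hc) j1 (by omega) (by nlinarith)
    nlinarith
  have j2 : j < 370 := by
    have k1 : u * v * (j * j) ≤ u * v * (3 * n * (u * v)) := by
      have := mul_le_mul_of_nonneg_right ab (show 0 ≤ u * v * (j * j) by positivity)
      rw [eA] at h3
      nlinarith
    have k2 := le_of_mul_le_mul_left k1 P0
    have k3 : u * v ≤ 4692 := by nlinarith [sq_nonneg (u - v)]
    have k4 : n * (u * v) ≤ 9 * 4692 := mul_le_mul (by omega) k3 P0.le (by norm_num)
    nlinarith
  lift n to ℕ using n0.le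
  lift u to ℕ using by omega
  lift v to ℕ using by omega
  lift j to ℕ using by omega
  have hn' : n ∈ [5, 7, 9] := by simp; omega
  have m2 : j * j % n = 1 := mod_of_dvd (by exact_mod_cast h2) (by omega)
  rcases lt_or_gt_of_ne hα with h | h
  · obtain ⟨al, rfl⟩ : ∃ al : ℕ, α = -al := ⟨α.natAbs, by omega⟩
    obtain ⟨be, rfl⟩ : ∃ be : ℕ, β = -be := ⟨β.natAbs, by
      have : β < 0 := by nlinarith
      omega⟩
    have e' : al * u = be * v + 1 := by zify; linarith
    have := chk2_eq (u := u) (v := v) (al := al) (by omega) (by omega) (by omega) (by omega)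
      (by omega) (by
        by_contra hc
        have : (v + 1 : ℤ) * u ≤ al * u := mul_le_mul_of_nonneg_right (by omega) (by omega)
        nlinarith)
    simp only [chk2, chk1, Bool.and_eq_true, Bool.or_eq_true, List.all_eq_true, List.mem_range,
      Bool.not_eq_true', beq_eq_false_iff_ne, Nat.ble_eq, Nat.blt_eq] at this
    have m1 : al * u % v = 1 := mod_of_dvd ⟨be, by rw [e']; push_cast; ring⟩ (by omega)
    have m3 : (al * u + 1) % n = 0 := mod_of_dvd (by
      have := h1.neg_right
      push_cast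
      rwa [show -(-(al : ℤ) * u - 1) = al * u + 1 - 0 by ring] at this) (by omega)
    have m4 : (n * al * (j * j) + 4) % u = 0 := mod_of_dvd (by
      have := h4.neg_right
      push_cast
      rwa [show -((n : ℤ) * -al * (j * j) - 4) = n * al * (j * j) + 4 - 0 by ring] at this)
      (by omega)
    have m5 : (n * be * (j * j)) % v = 4 := mod_of_dvd (by
      have := h5.neg_right
      push_cast
      rwa [show -((n : ℤ) * -be * (j * j) + 4) = n * be * (j * j) - 4 by ring] at this) (by omega)
    have m6 : (al * u - 1) / v = be := by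
      rw [e', Nat.add_sub_cancel, Nat.mul_div_cancel _ (by omega)]
    have m7 : ¬ 3 * n * (u * v) * (u * v) < al * u * (al * u - 1) * (j * j) := by
      rw [e', Nat.add_sub_cancel]
      zify at e' ⊢
      rw [neg_mul, e'] at h3
      linarith
    have := (((this.2.resolve_left (by simp [m1])) n hn').resolve_left (by simp [m3])) j
      (by omega)
    simp [m2, m4, m5, m6, m7] at this
    omega
  · lift α to ℕ using h.le with al
    lift β to ℕ using (by nlinarith) with be
    have e' : al * u + 1 = be * v := by zify; linarith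
    have := chk2_eq (u := u) (v := v) (al := al) (by omega) (by omega) (by omega) (by omega)
      (by omega) (by
        by_contra hc
        have : (v + 1 : ℤ) * u ≤ al * u := mul_le_mul_of_nonneg_right (by omega) (by omega)
        nlinarith)
    simp only [chk2, chk1, Bool.and_eq_true, Bool.or_eq_true, List.all_eq_true, List.mem_range,
      Bool.not_eq_true', beq_eq_false_iff_ne, Nat.ble_eq, Nat.blt_eq] at this
    have m1 : (al * u + 1) % v = 0 := by rw [e', Nat.mul_mod_left]
    have m3 : al * u % n = 1 := mod_of_dvd (by exact_mod_cast h1) (by omega)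
    have m4 : (n * al * (j * j)) % u = 4 := mod_of_dvd (by exact_mod_cast h4) (by omega)
    have m5 : (n * be * (j * j) + 4) % v = 0 := mod_of_dvd (by
      push_cast; rwa [sub_zero]) (by omega)
    have m6 : (al * u + 1) / v = be := by rw [e', Nat.mul_div_cancel _ (by omega)]
    have m7 : ¬ 3 * n * (u * v) * (u * v) < al * u * (al * u + 1) * (j * j) := by
      zify; linarith
    have := (((this.1.resolve_left (by simp [m1])) n hn').resolve_left (by simp [m3])) j
      (by omega)
    simp [m2, m4, m5, m6, m7] at this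
    omega

/-- the mixed case -/
theorem mix {n u v α β j s b : ℤ} (hn : n = 5 ∨ n = 7 ∨ n = 9) (hu : 9 ≤ u) (hv : 9 ≤ v)
    (u4 : u % 4 = 1) (v4 : v % 4 = 1) (e : α * u + 1 = β * v) (hα : α ≠ 0)
    (h1 : n ∣ α * u - 1) (hj : 1 < j) (h2 : n ∣ j * j - 1)
    (h3 : α * u * (α * u + 1) * (j * j) ≤ 3 * n * (u * v) * (u * v))
    (h4 : u ∣ n * α * (j * j) - 4) (h5 : v ∣ n * β * (j * j) + 4) (hb : b = |α * u - s|)
    (h6 : b * b * (u + v + 2 * n - 4) < 4 * n * (α * u * (α * u + 1)))
    (h7 : n * j * (s * (s + 1)) ≤ b * (j * j - 1)) : False := by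
  by_cases hS : u + v ≤ 137
  · exact mix_fin hn hu hv u4 v4 hS e hα h1 hj h2 h3 h4 h5
  have P0 : 0 < u * v := by positivity
  have ab : 1 ≤ α * β := by
    rcases lt_or_gt_of_ne hα with h | h
    · have : β < 0 := by nlinarith
      nlinarith
    · have : 0 < β := by nlinarith
      nlinarith
  have eA : α * u * (α * u + 1) = α * β * (u * v) := by rw [e]; ring
  have ab2 : 2 ≤ α * β := by
    have k1 := Int.even_mul_succ_self (α * u)
    rw [eA] at k1
    have k2 : Odd (u * v) := (Int.odd_iff.2 (by omega)).mul (Int.odd_iff.2 (by omega))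
    have := (Int.even_mul.1 k1).resolve_right (Int.not_even_iff_odd.2 k2)
    obtain ⟨c, hc⟩ := this
    omega
  have b0 : 0 ≤ b := hb ▸ abs_nonneg _
  have bb : b * b = (α * u - s) * (α * u - s) := by rw [hb, abs_mul_abs_self]
  have s0 : 0 ≤ s * (s + 1) := by nlinarith [sq_nonneg (2 * s + 1), Int.even_mul_succ_self s]
  generalize α * u = a at *
  generalize hA : a * (a + 1) = A at *
  generalize hσ : s * (s + 1) = σ at *
  generalize u * v = P at *
  generalize hW : u + v + 2 * n - 4 = W at *
  have W1 : 144 ≤ W := by omega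
  have n5 : 5 ≤ n := by omega
  have n9 : n ≤ 9 := by omega
  have PA : 2 * P ≤ A := by nlinarith
  have A0 : 0 < A := by omega
  have k1 : 4 * (b * b) < A := by nlinarith [mul_self_nonneg b]
  have k2 : n * σ ≤ b * j := by
    refine le_of_mul_le_mul_left ?_ (show 0 < j by omega)
    nlinarith
  have k3 : n * σ * (n * σ) ≤ b * j * (b * j) :=
    mul_self_le_mul_self (by positivity) k2
  have k4 : n * (n * A) * (σ * σ * W) ≤ n * (n * A) * (12 * (P * P)) := by
    have a1 := mul_le_mul_of_nonneg_left k3 (show 0 ≤ A * W by positivity)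
    have a2 := mul_le_mul_of_nonneg_left h3 (show 0 ≤ b * b * W by positivity)
    have a3 := mul_le_mul_of_nonneg_left h6.le (show 0 ≤ 3 * n * P * P by positivity)
    nlinarith
  have k5 := le_of_mul_le_mul_left k4 (by positivity)
  have k6 : 6 * σ < A := by
    by_contra hc
    have a1 := mul_self_le_mul_self A0.le (not_lt.1 hc)
    have a2 := mul_self_le_mul_self (by positivity) PA
    have a3 := mul_le_mul_of_nonneg_left W1 (mul_self_nonneg σ)
    nlinarith
  have k7 : 0 < (2 * a + 1 - 4 * (a - s)) * (3 * (2 * a + 1) - 4 * (a - s)) := by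
    have a1 : (4 * (a - s)) ^ 2 < (2 * a + 1) ^ 2 := by nlinarith
    rcases le_total 0 (2 * a + 1) with h | h
    · have := abs_lt_of_sq_lt_sq' a1 h
      exact mul_pos (by linarith) (by linarith)
    · have := abs_lt_of_sq_lt_sq' (a1.trans_eq (neg_sq _).symm) (by linarith)
      exact mul_pos_of_neg_of_neg (by linarith) (by linarith)
  nlinarith

/-- both of the first type -/
theorem both {n P κ a j s b k : ℤ} (hn : 5 ≤ n) (ho : Odd n) (hP : 81 ≤ P) (e : a + 1 = κ * P)
    (hκ : κ ≠ 0) (h1 : n ∣ a - 1) (hj : 1 < j) (h2 : n ∣ j * j - 1)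
    (h3 : a * (a + 1) * (j * j) ≤ 3 * n * P * P) (hb : b = |a - s|) (b0 : 0 < b)
    (h4 : k * b = n * j * (a * (a + 1))) (h5 : IsCoprime b (n * P))
    (h7 : n * j * (s * (s + 1)) ≤ b * (j * j - 1)) (hk : Odd k) : False := by
  obtain ⟨h, eh⟩ := h2
  have h0 : 1 ≤ h := by nlinarith
  have k1 : a * κ * (j * j) ≤ 3 * n * P := by
    refine le_of_mul_le_mul_left ?_ (show 0 < P by omega)
    rw [e] at h3
    linarith
  have k0 : 0 < a * κ := by
    rcases lt_or_gt_of_ne hκ with h | h
    · exact mul_pos_of_neg_of_neg (by nlinarith) h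
    · exact mul_pos (by nlinarith) h
  have k2 : a * κ * h < 3 * P := by
    refine lt_of_mul_lt_mul_left ?_ (show 0 ≤ n by omega)
    nlinarith
  have k3 : κ = 1 ∨ κ = -1 := by
    by_contra hc
    have a1 : a * κ ≤ a * κ * h := le_mul_of_one_le_right k0.le h0
    rcases (by omega : 2 ≤ κ ∨ κ ≤ -2) with h | h
    · have : 2 * P - 1 ≤ a := by nlinarith
      nlinarith
    · have : a ≤ -2 * P - 1 := by nlinarith
      nlinarith
  have a0 : a = P - 1 ∨ a = -P - 1 := by rcases k3 with rfl | rfl <;> omega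
  have k4 : h ≤ 3 := by
    by_contra hc
    have := mul_le_mul_of_nonneg_left (show 4 ≤ h by omega) k0.le
    rcases k3 with rfl | rfl <;> nlinarith
  have k5 : n ≤ P + 2 := by
    have := Int.le_of_dvd (abs_pos.2 (show a - 1 ≠ 0 by omega)) ((dvd_abs _ _).2 h1)
    cases abs_cases (a - 1) <;> omega
  by_cases hs : s = 0
  · subst hs
    have k6 : k = n * j * |a + 1| := by
      refine mul_right_cancel₀ b0.ne' ?_
      rw [h4, hb, sub_zero, mul_assoc (n * j), ← abs_mul, abs_of_pos (by rcases a0 with e | e <;> nlinarith)]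
      ring
    have k7 : Odd j := (Int.odd_mul.1 (Int.odd_mul.1 (k6 ▸ hk)).1).2
    obtain ⟨i, rfl⟩ := k7
    obtain ⟨m, rfl⟩ := ho
    obtain ⟨c, hc⟩ := Int.even_mul_succ_self i
    have : 8 * c = (2 * m + 1) * h := by nlinarith
    interval_cases h <;> omega
  have k6 : b ∣ j * κ * s := by
    have a1 : b ∣ j * κ * a := h5.dvd_of_dvd_mul_left ⟨k, by rw [mul_comm b, h4, e]; ring⟩
    have a2 : b ∣ j * κ * (a - s) := (hb ▸ (abs_dvd_self _)).mul_left _
    simpa [mul_sub] using a1.sub a2
  have k7 : b ≤ j * |s| := by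
    have := Int.le_of_dvd (abs_pos.2 (mul_ne_zero (mul_ne_zero (by omega) hκ) hs))
      ((dvd_abs _ _).2 k6)
    rcases k3 with rfl | rfl <;> simpa [abs_mul, abs_of_pos (show 0 < j by omega)] using this
  have k8 : j * (s * (s + 1)) ≤ h * b := by
    refine le_of_mul_le_mul_left ?_ (show 0 < n by omega)
    rw [eh] at h7
    linarith
  have k9 : s * (s + 1) ≤ 3 * |s| := by
    refine le_of_mul_le_mul_left ?_ (show 0 < j by omega)
    nlinarith
  have k10 : |s| ≤ 4 := by
    cases abs_cases s <;> nlinarith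
  have k11 : P - 5 ≤ b := by
    cases abs_cases (a - s) <;> cases abs_cases s <;> omega
  have k12 : P - 5 ≤ 4 * j := by nlinarith
  have k13 : n * h ≤ (P + 2) * 3 := mul_le_mul k5 k4 (by omega) (by omega)
  nlinarith

theorem neg_aux {n u v K f y : ℤ} (hn : 5 ≤ n) (hu : 9 ≤ u) (huv : u ≤ v) (u4 : u % 4 = 1)
    (v4 : v % 4 = 1) (K0 : 0 < K) (K4 : K % 4 = 3) (h1 : f * n = K * (u * v) + 2)
    (h2 : y * (u * v) = K * (u + v) - 2 * f) (h3 : 0 ≤ 2 * n - (u + v) - 4)
    (h4 : 2 * n - (u + v) - 4 ≤ y) (h5 : K * K < 3 * n) : False := by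
  have P0 : 0 < u * v := by nlinarith
  have f0 : 0 < f := by nlinarith
  have y4 : y % 4 = 0 := by
    have a1 : (u * v) % 4 = 1 := by rw [Int.mul_emod, u4, v4]; rfl
    have a2 : (K * (u * v)) % 4 = 3 := by rw [Int.mul_emod, K4, a1]; rfl
    have a3 : (K * (u + v)) % 4 = 2 := by rw [Int.mul_emod, K4, show (u + v) % 4 = 2 by omega]; rfl
    have a4 : Odd f := (Int.odd_mul.1 (Int.odd_iff.2 (show (f * n) % 2 = 1 by omega))).1
    have a5 : (y * (u * v)) % 4 = y % 4 := by rw [Int.mul_emod, a1]; omega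
    obtain ⟨c, rfl⟩ := a4
    omega
  rcases (by omega : y = 0 ∨ 4 ≤ y) with rfl | hy
  · have a1 : K * ((u + v) * (u + v + 4) - 4 * (u * v)) = 8 := by
      rw [show u + v + 4 = 2 * n by omega]; linear_combination 4 * h1 - 2 * n * h2
    have a2 : 72 ≤ (u + v) * (u + v + 4) - 4 * (u * v) := by nlinarith [sq_nonneg (u - v)]
    nlinarith
  have e : 2 * f = K * u + (K - y * u) * v := by linarith
  have a0 : (y * u) % 4 = 0 := by rw [Int.mul_emod, y4]; simp
  rcases (by omega : 3 ≤ K - y * u ∨ K - y * u ≤ -1) with h | h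
  · have a1 : 4 * u < K := by nlinarith
    have a2 : 2 * n * ((K - y * u) * v) = K * u * (4 * v - 2 * n) + 8 := by
      linear_combination 4 * h1 - 2 * n * e
    have a3 : 0 < K * u := by positivity
    have a4 : 2 * n * v < K * u * v := by
      have := mul_le_mul_of_nonneg_left h (show 0 ≤ 2 * n * v by nlinarith)
      have := mul_le_mul_of_nonneg_left (show 4 * v - 2 * n ≤ 3 * v - 13 by omega) a3.le
      nlinarith
    have a5 := lt_of_mul_lt_mul_right a4 (by omega)
    nlinarith
  · have a1 : 2 * f < K * u := by nlinarith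
    have a3 : 0 < K * u := by positivity
    have a2 : K * u * (2 * v) < K * u * n := by nlinarith
    have a4 := lt_of_mul_lt_mul_left a2 a3.le
    have a5 : y * u * v < 2 * K * v := by nlinarith
    have a6 := lt_of_mul_lt_mul_right a5 (by omega)
    have a7 : 9 * (n - 4) < 2 * K := by nlinarith
    nlinarith

/-- the negative sign -/
theorem neg {n u v K f y : ℤ} (hn : 5 ≤ n) (hu : 9 ≤ u) (hv : 9 ≤ v) (u4 : u % 4 = 1)
    (v4 : v % 4 = 1) (K0 : 0 < K) (K4 : K % 4 = 3) (h1 : f * n = K * (u * v) + 2)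
    (h2 : y * (u * v) = K * (u + v) - 2 * f) (h3 : 0 ≤ 2 * n - (u + v) - 4)
    (h4 : 2 * n - (u + v) - 4 ≤ y) (h5 : K * K < 3 * n) : False := by
  rcases le_total u v with h | h
  · exact neg_aux hn hu h u4 v4 K0 K4 h1 h2 h3 h4 h5
  · rw [mul_comm u, add_comm u] at *
    exact neg_aux hn hv h v4 u4 K0 K4 h1 h2 h3 h4 h5

end SCS
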